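import Cfsg.Agent.H231.QF.Defs
import Cfsg.Agent.S1066

/-!
# S2491, row F4 = `²E₆(2)` : the classification of the elements from the local pieces (helper258)

* `card_KK` : the order; `prime_cases` : the prime divisors of the order of an element;
* `in_of_cr` : `CR g → In φ j1 g`; `in_of_V4`;
* `classification_of` : the stub `classification` of tools/plans/S2491_F4_stubs.lean.txt from K1, K2, `par` (helper287), C5, C7, C11.
-/

set_option autoImplicit false
set_option linter.unusedSectionVars false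

namespace Cfsg.Agent.H258.QF

open CoxeterSystem Cfsg.Agent.ChevalleyStructure.CoxeterGeom Cfsg.Agent.Tits.Roots Cfsg.Agent.Tits.Core
  Cfsg.Agent.Nodes Cfsg.Agent.Nodes.Reps Cfsg.Agent.Nodes.BNOf Cfsg.Agent.Nodes.RGDLib Cfsg.Agent.Nodes.Bruhat
  Cfsg.Agent.Nodes.OppDec Cfsg.Agent.Nodes.LeviDec Cfsg.Agent.Nodes.StabComb
open Cfsg.Lie Subgroup
open Cfsg.Agent.H231.QF

universe u

variable {F : Type u} [Field F]

/-- the order of `²E₆(2)` -/
theorem card_KK [Fintype F] (hF : Fintype.card F = 4) : Nat.card (KK F) = 76532479683774853939200 := by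
  have h1 := Cfsg.Agent.S1066.result (K := F) (q := 2) Nat.prime_two.isPrimePow (by rw [hF]; norm_num)
  have e3 : Nat.gcd 3 (2 + 1) = 3 := by decide
  rw [e3] at h1
  norm_num at h1
  change Nat.card ↥(twistedE6 F 2) = _
  omega

theorem card_fac : (76532479683774853939200 : ℕ) = 2 ^ 36 * 3 ^ 9 * 5 ^ 2 * 7 ^ 2 * 11 * 13 * 17 * 19 := by norm_num

/-- the primes -/
theorem prime_cases [Fintype F] (hF : Fintype.card F = 4) {g : KK F} {p : ℕ} (hp : p.Prime) (h : p ∣ orderOf g) :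
    p = 2 ∨ p = 3 ∨ p = 5 ∨ p = 7 ∨ p = 11 ∨ p = 13 ∨ p = 17 ∨ p = 19 := by
  have h1 : p ∣ 2 ^ 36 * 3 ^ 9 * 5 ^ 2 * 7 ^ 2 * 11 * 13 * 17 * 19 := by
    rw [← card_fac, ← card_KK hF]
    exact h.trans (orderOf_dvd_natCard g)
  have key : ∀ q : ℕ, q.Prime → p ∣ q → p = q := fun q hq hd => (Nat.prime_dvd_prime_iff_eq hp hq).1 hd
  rcases (Nat.Prime.dvd_mul hp).1 h1 with h1 | h1
  rcases (Nat.Prime.dvd_mul hp).1 h1 with h1 | h1
  rcases (Nat.Prime.dvd_mul hp).1 h1 with h1 | h1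
  rcases (Nat.Prime.dvd_mul hp).1 h1 with h1 | h1
  rcases (Nat.Prime.dvd_mul hp).1 h1 with h1 | h1
  rcases (Nat.Prime.dvd_mul hp).1 h1 with h1 | h1
  rcases (Nat.Prime.dvd_mul hp).1 h1 with h1 | h1
  · exact Or.inl (key 2 (by norm_num) (hp.dvd_of_dvd_pow h1))
  · exact Or.inr (Or.inl (key 3 (by norm_num) (hp.dvd_of_dvd_pow h1)))
  · exact Or.inr (Or.inr (Or.inl (key 5 (by norm_num) (hp.dvd_of_dvd_pow h1))))
  · exact Or.inr (Or.inr (Or.inr (Or.inl (key 7 (by norm_num) (hp.dvd_of_dvd_pow h1)))))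
  · exact Or.inr (Or.inr (Or.inr (Or.inr (Or.inl (key 11 (by norm_num) h1)))))
  · exact Or.inr (Or.inr (Or.inr (Or.inr (Or.inr (Or.inl (key 13 (by norm_num) h1))))))
  · exact Or.inr (Or.inr (Or.inr (Or.inr (Or.inr (Or.inr (Or.inl (key 17 (by norm_num) h1)))))))
  · exact Or.inr (Or.inr (Or.inr (Or.inr (Or.inr (Or.inr (Or.inr (key 19 (by norm_num) h1)))))))

theorem finite_KK [Fintype F] : Finite (KK F) := inferInstance

/-- a root element exists -/
theorem exists_re [Fintype F] (hF : Fintype.card F = 4) : ∃ t : KK F, RE t := by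
  have : Finite (KK F) := finite_KK
  obtain ⟨S⟩ := (inferInstance : Nonempty (Sylow 2 (KK F)))
  have : Fact (Nat.Prime 2) := ⟨Nat.prime_two⟩
  have hc : Nat.card (S : Subgroup (KK F)) = 2 ^ 36 := by
    rw [Sylow.card_eq_multiplicity, card_KK hF]
    congr 1
    rw [Nat.factorization_def _ Nat.prime_two, padicValNat_def (by norm_num)]
    rw [multiplicity_eq_of_dvd_of_not_dvd] <;> norm_num
  have hpg : IsPGroup 2 (S : Subgroup (KK F)) := S.isPGroup'
  have hnt : Nontrivial (S : Subgroup (KK F)) := by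
    rw [← Finite.one_lt_card_iff_nontrivial, hc]
    norm_num
  have hz : Nontrivial (center (S : Subgroup (KK F))) := hpg.center_nontrivial
  have h2 : 2 ∣ Nat.card (center (S : Subgroup (KK F))) := by
    have h3 : IsPGroup 2 (center (S : Subgroup (KK F))) := hpg.to_subgroup _
    obtain ⟨n, hn⟩ := IsPGroup.iff_card.1 h3
    have h4 := Finite.one_lt_card_iff_nontrivial.2 hz
    rw [hn] at h4 ⊢
    refine dvd_pow_self 2 ?_
    rintro rfl
    norm_num at h4
  obtain ⟨⟨⟨t, htS⟩, htc⟩, ht⟩ := exists_prime_orderOf_dvd_card' 2 h2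
  rw [Subgroup.orderOf_mk, Subgroup.orderOf_mk] at ht
  refine ⟨t, ?_, ?_, ?_⟩
  · rintro rfl
    rw [orderOf_one] at ht
    norm_num at ht
  · rw [← pow_two]
    have h6 := pow_orderOf_eq_one t
    rwa [ht] at h6
  · rw [← hc]
    refine card_dvd_of_le fun s hs => ?_
    rw [mem_centralizer_singleton_iff]
    have h5 := mem_center_iff.1 htc ⟨s, hs⟩
    exact congrArg Subtype.val h5

section

variable [Fintype F] {φ : F →+* F}
  (hre : ∀ t : KK F, RE t ↔ t ≠ 1 ∧ ∃ x : KK F, x * t * x⁻¹ ∈ X φ th)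
  (hcen : ∀ {t : KK F}, t ∈ X φ th → t ≠ 1 → centralizer ({t} : Set (KK F)) = P φ j1)

include hre hcen in
theorem in_of_cr {g : KK F} (h : CR g) : In φ j1 g := by
  obtain ⟨t, ht, hgt⟩ := h
  obtain ⟨h1, x, hx⟩ := (hre t).1 ht
  refine ⟨x, ?_⟩
  rw [← hcen hx (fun h => h1 (by
    calc t = x⁻¹ * (x * t * x⁻¹) * x := by group
      _ = 1 := by rw [h]; group)), mem_centralizer_singleton_iff]
  calc x * g * x⁻¹ * (x * t * x⁻¹) = x * (g * t) * x⁻¹ := by group
    _ = x * t * x⁻¹ * (x * g * x⁻¹) := by rw [hgt]; group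

theorem V_le_P (J J' : Set (Fin 4)) : V φ J ≤ P φ J' := le_trans (VJ_le_B J) B_le_PJ

theorem in_or_out {g : KK F} (h : In φ j4 g) : In φ j1 g ∨ H231.QF.Out φ j4 g := by
  obtain ⟨x, hx⟩ := h
  by_cases h1 : x * g * x⁻¹ ∈ V φ j4
  · exact Or.inl ⟨x, V_le_P j4 j1 h1⟩
  · exact Or.inr ⟨x, hx, h1⟩

/-- the output of `par` -/
def Par (φ : F →+* F) : Prop := ∀ g z : KK F, z ≠ 1 → z * z = 1 → g * z = z * g →
  In φ j1 g ∨ In φ j4 g ∨ 5 ∣ orderOf g ∨ 7 ∣ orderOf g

include hre hcen in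
/-- **the classification** -/
theorem classification_of (hF : Fintype.card F = 4) (hpar : Par φ)
    (h5 : ∀ g : KK F, 5 ∣ orderOf g → CR g ∨ Sm g)
    (h7 : ∀ g : KK F, 7 ∣ orderOf g → CR g ∨ H231.QF.Out φ j4 g ∨ Sm g)
    (hb : ∀ (g : KK F) (p : ℕ), (p = 11 ∨ p = 13 ∨ p = 17 ∨ p = 19) → p ∣ orderOf g → Sm g)
    (g : KK F) : In φ j1 g ∨ H231.QF.Out φ j4 g ∨ Sm g ∨ ∃ k : ℕ, g ^ 3 ^ k = 1 := by
  have : Finite (KK F) := finite_KK
  by_cases c5 : 5 ∣ orderOf g
  · rcases h5 g c5 with h | h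
    · exact Or.inl (in_of_cr hre hcen h)
    · exact Or.inr (Or.inr (Or.inl h))
  by_cases c7 : 7 ∣ orderOf g
  · rcases h7 g c7 with h | h | h
    · exact Or.inl (in_of_cr hre hcen h)
    · exact Or.inr (Or.inl h)
    · exact Or.inr (Or.inr (Or.inl h))
  by_cases cb : ∃ p, (p = 11 ∨ p = 13 ∨ p = 17 ∨ p = 19) ∧ p ∣ orderOf g
  · obtain ⟨p, hp, hd⟩ := cb
    exact Or.inr (Or.inr (Or.inl (hb g p hp hd)))
  have cb' : ∀ p, (p = 11 ∨ p = 13 ∨ p = 17 ∨ p = 19) → ¬ p ∣ orderOf g := fun p hp hd => cb ⟨p, hp, hd⟩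
  by_cases c2 : 2 ∣ orderOf g
  · obtain ⟨m, hm⟩ := c2
    have hpos := orderOf_pos g
    have hz1 : g ^ m ≠ 1 := by
      intro h
      have h1 := Nat.le_of_dvd (by omega) (orderOf_dvd_of_pow_eq_one h)
      omega
    have hz2 : g ^ m * g ^ m = 1 := by
      rw [← pow_add, ← two_mul, ← hm, pow_orderOf_eq_one]
    rcases hpar g (g ^ m) hz1 hz2 (by rw [← pow_succ, ← pow_succ']) with h | h | h | h
    · exact Or.inl h
    · rcases in_or_out h with h | h
      · exact Or.inl h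
      · exact Or.inr (Or.inl h)
    · exact absurd h c5
    · exact absurd h c7
  · refine Or.inr (Or.inr (Or.inr ?_))
    have h3 : ∀ p : ℕ, p.Prime → p ∣ orderOf g → p = 3 := by
      intro p hp hd
      rcases prime_cases hF hp hd with h | h | h | h | h | h | h | h
      · exact absurd (h ▸ hd) c2
      · exact h
      · exact absurd (h ▸ hd) c5
      · exact absurd (h ▸ hd) c7
      · exact absurd hd (cb' p (Or.inl h))
      · exact absurd hd (cb' p (Or.inr (Or.inl h)))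
      · exact absurd hd (cb' p (Or.inr (Or.inr (Or.inl h))))
      · exact absurd hd (cb' p (Or.inr (Or.inr (Or.inr h))))
    refine ⟨(orderOf g).primeFactorsList.length, ?_⟩
    have h4 := Nat.eq_prime_pow_of_unique_prime_dvd (orderOf_pos g).ne' (fun {d} hd => h3 d hd)
    rw [← h4, pow_orderOf_eq_one]

end

end Cfsg.Agent.H258.QF
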